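import Cfsg.Agent.Lib.Perm.PrimeDegree

/-!
Linear groups over `F₂` acting as affine groups on a prime number of non-zero vectors.
-/

set_option autoImplicit false

namespace CfsgLib.CK.Mers

open Module Polynomial

variable {V : Type*} [AddCommGroup V] [Module (ZMod 2) V] [Finite V]

/-- A conjugate of a Singer cycle `T` that is a power of `T` is a `2^i`-th power. -/
theorem exists_two_pow {n : ℕ} (hn : finrank (ZMod 2) V = n) (T g : V ≃ₗ[ZMod 2] V)
    (ho : orderOf T = 2 ^ n - 1) (htr : ∀ v w : V, v ≠ 0 → w ≠ 0 → ∃ j : ℕ, (T ^ j) v = w)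
    (h1 : 1 < 2 ^ n - 1) {k : ℕ} (hk : g * T * g⁻¹ = T ^ k) : ∃ i, T ^ k = T ^ 2 ^ i := by
  classical
  have hV : Nontrivial V := by
    rw [← finrank_pos_iff (R := ZMod 2), hn]
    rcases n with _ | n
    · simp at h1
    · omega
  let T' : End (ZMod 2) V := T
  have hpow : ∀ j : ℕ, T' ^ j = ((T ^ j : V ≃ₗ[ZMod 2] V) : V →ₗ[ZMod 2] V) := fun j => by
    induction j with
    | zero => rfl
    | succ j ih => rw [pow_succ, pow_succ, ih]; rfl
  let K := Algebra.adjoin (ZMod 2) {T'}
  let τ : K := ⟨T', Algebra.self_mem_adjoin_singleton _ _⟩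
  have hinj : ∀ x : K, x ≠ 0 → ∀ v, x.1 v = 0 → v = 0 := by
    intro x hx v hv
    by_contra hv0
    refine hx (Subtype.ext (LinearMap.ext fun w => ?_))
    by_cases hw : w = 0
    · simp [hw]
    obtain ⟨j, rfl⟩ := htr v w hv0 hw
    have h2 := congrArg (fun y : K => y.1 v) (mul_comm x (τ ^ j))
    simp only [τ, MulMemClass.coe_mul, SubmonoidClass.coe_pow, hpow, End.mul_apply, hv,
      map_zero] at h2
    exact h2
  have : NoZeroDivisors K := ⟨fun {x y} h => by
    by_contra hc
    push Not at hc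
    refine hc.2 (Subtype.ext (LinearMap.ext fun w => hinj x hc.1 _ ?_))
    exact congrArg (fun z : K => z.1 w) h⟩
  have : IsDomain K := NoZeroDivisors.to_isDomain K
  let μ := LinearMap.charpoly T'
  have hμ : μ.natDegree = n := by rw [LinearMap.charpoly_natDegree, hn]
  have hμ0 : μ.map (algebraMap (ZMod 2) K) ≠ 0 := ((LinearMap.charpoly_monic T').map _).ne_zero
  have root : ∀ j : ℕ, aeval (T' ^ j) μ = 0 → τ ^ j ∈ (μ.aroots K).toFinset := by
    intro j hj
    rw [Multiset.mem_toFinset, mem_aroots']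
    refine ⟨hμ0, Subtype.ext ?_⟩
    rw [aeval_subalgebra_coe]
    exact hj
  have r2 : ∀ i, aeval (T' ^ 2 ^ i) μ = 0 := by
    intro i
    induction i with
    | zero => simpa using LinearMap.aeval_self_charpoly T'
    | succ i ih =>
      rw [pow_succ, pow_mul, ← expand_aeval, ZMod.expand_card, map_pow, ih]
      simp
  have rk : aeval (T' ^ k) μ = 0 := by
    have e : T' ^ k = g.conj T' := by
      rw [hpow, ← hk]; ext v; simp [T', LinearEquiv.conj_apply]
    have := LinearMap.aeval_self_charpoly (g.conj T')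
    rwa [LinearEquiv.charpoly_conj, ← e] at this
  have back : ∀ a b : ℕ, τ ^ a = τ ^ b → T ^ a = T ^ b := fun a b h => by
    have := congrArg Subtype.val h
    simp only [τ, SubmonoidClass.coe_pow, hpow] at this
    exact LinearEquiv.toLinearMap_injective this
  have hsub : (Finset.range n).image (fun i => τ ^ 2 ^ i) ⊆ (μ.aroots K).toFinset := by
    intro x hx
    obtain ⟨i, -, rfl⟩ := Finset.mem_image.1 hx
    exact root _ (r2 i)
  have hlt : ∀ i < n, 2 ^ i < orderOf T := fun i hi => by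
    rw [ho]
    obtain ⟨m, rfl⟩ : ∃ m, n = m + 1 := ⟨n - 1, by omega⟩
    have := Nat.pow_le_pow_right (n := 2) (by norm_num) (Nat.lt_succ_iff.1 hi)
    rw [pow_succ] at h1 ⊢
    omega
  have hcard : ((Finset.range n).image (fun i => τ ^ 2 ^ i)).card = n := by
    rw [Finset.card_image_of_injOn, Finset.card_range]
    intro a ha b hb hab
    have := pow_injOn_Iio_orderOf (hlt a (by simpa using ha)) (hlt b (by simpa using hb))
      (back _ _ hab)
    exact Nat.pow_right_injective le_rfl this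
  have hle : (μ.aroots K).toFinset.card ≤ n :=
    (Multiset.toFinset_card_le _).trans ((card_roots' _).trans (natDegree_map_le.trans hμ.le))
  have := root k rk
  rw [← Finset.eq_of_subset_of_card_le hsub (by omega)] at this
  obtain ⟨i, -, hi⟩ := Finset.mem_image.1 this
  exact ⟨i, (back _ _ hi).symm⟩

/-- the non-zero vectors -/
def NZ (H : Subgroup (V ≃ₗ[ZMod 2] V)) : SubMulAction H V where
  carrier := {v | v ≠ 0}
  smul_mem' g _ hv := fun h => hv (g.1.map_eq_zero_iff.1 h)

omit [Finite V] in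
theorem faithful (H : Subgroup (V ≃ₗ[ZMod 2] V)) : FaithfulSMul H (NZ H) :=
  ⟨fun {a b} h => Subtype.ext (LinearEquiv.ext fun v => by
    by_cases hv : v = 0
    · simp [hv]
    · exact congrArg Subtype.val (h ⟨v, hv⟩))⟩

theorem card_NZ {n : ℕ} (hn : finrank (ZMod 2) V = n) (H : Subgroup (V ≃ₗ[ZMod 2] V)) :
    Nat.card (NZ H) = 2 ^ n - 1 := by
  have h1 : Nat.card V = 2 ^ n := by
    rw [Module.natCard_eq_pow_finrank (K := ZMod 2), hn]; simp
  have h2 : Nat.card (NZ H) = ({0}ᶜ : Set V).ncard := rfl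
  rw [h2, Set.ncard_compl, h1, Set.ncard_singleton]

theorem tr_of_dvd {n : ℕ} (hn : finrank (ZMod 2) V = n) (hp : (2 ^ n - 1).Prime)
    {C : Subgroup (V ≃ₗ[ZMod 2] V)} (hC : Nat.card C = 2 ^ n - 1) (v w : V) (hv : v ≠ 0)
    (hw : w ≠ 0) : ∃ h ∈ C, h v = w := by
  have := Fact.mk hp
  have := faithful C
  have : Finite C := Nat.finite_of_card_ne_zero (by rw [hC]; exact hp.ne_zero)
  obtain ⟨T, hT⟩ := exists_prime_orderOf_dvd_card' (G := C) (2 ^ n - 1) hC.symm.dvd
  obtain ⟨a, ha⟩ := CfsgLib.Perm.exists_smul_ne_of_ne_one (Ω := NZ C) (g := T) (fun h => by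
    rw [h, orderOf_one] at hT; exact hp.one_lt.ne hT)
  obtain ⟨e, he⟩ := CfsgLib.Perm.exists_coord (card_NZ hn C) hT ha
  obtain ⟨i, hi⟩ := e.surjective ⟨v, hv⟩
  obtain ⟨j, hj⟩ := e.surjective ⟨w, hw⟩
  have := CfsgLib.Perm.coord_pow he (j - i).val i
  rw [ZMod.natCast_zmod_val, add_sub_cancel, hi, hj] at this
  exact ⟨(T ^ (j - i).val).1, (T ^ (j - i).val).2, congrArg Subtype.val this⟩

theorem affine {n : ℕ} (hn : finrank (ZMod 2) V = n) [hp : Fact (2 ^ n - 1).Prime]
    {H : Subgroup (V ≃ₗ[ZMod 2] V)} (e : ZMod (2 ^ n - 1) ≃ NZ H) (T : H)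
    (hT : ∀ j, T • e j = e (j + 1)) (h : ∀ g : H, ∃ a b, ∀ j, g • e j = e (a * j + b)) :
    (IsCyclic H ∧ Nat.card H = 2 ^ n - 1) ∨
      (Nat.card H = n * (2 ^ n - 1) ∧ ∃ C : Subgroup (V ≃ₗ[ZMod 2] V), C ≤ H ∧
        (C.subgroupOf H).Normal ∧ IsCyclic C ∧ Nat.card C = 2 ^ n - 1) := by
  have := faithful H
  have : Finite (V ≃ₗ[ZMod 2] V) := DFunLike.finite _
  have hnp : n.Prime := (Nat.prime_of_pow_sub_one_prime (fun h => by
    have := hp.out; rw [h] at this; exact Nat.not_prime_one this) hp.out).2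
  choose a b hab using h
  have ext : ∀ g k : H, (∀ j, g • e j = k • e j) → g = k := fun g k h =>
    eq_of_smul_eq_smul (α := NZ H) fun x => by obtain ⟨j, rfl⟩ := e.surjective x; exact h j
  have hpow := CfsgLib.Perm.coord_pow hT
  have coef : ∀ (g : H) (a' b'), (∀ j, g • e j = e (a' * j + b')) → a g = a' := by
    intro g a' b' h
    have h0 := e.injective ((hab g 0).symm.trans (h 0))
    have h1 := e.injective ((hab g 1).symm.trans (h 1))
    linear_combination h1 - h0
  let α : H →* ZMod (2 ^ n - 1) :=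
    { toFun := a
      map_one' := coef 1 1 0 fun j => by simp
      map_mul' := fun g k => coef _ _ (a g * b k + b g) fun j => by
        rw [mul_smul, hab, hab]; congr 1; ring }
  have ho : orderOf T = 2 ^ n - 1 := orderOf_eq_prime (ext _ _ fun j => by
    rw [hpow, ZMod.natCast_self, add_zero, one_smul]) fun h => by
      have := hT 0
      rw [h, one_smul] at this
      simpa using e.injective this
  have hker : α.toHomUnits.ker = Subgroup.zpowers T := by
    ext g
    rw [MonoidHom.mem_ker, ← Units.val_inj]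
    change a g = 1 ↔ _
    constructor
    · intro h1
      refine ⟨((b g).val : ℕ), ext _ _ fun j => ?_⟩
      simp only [zpow_natCast]
      rw [hpow, hab, h1, ZMod.natCast_zmod_val, one_mul]
    · intro hg
      obtain ⟨m, rfl⟩ := (mem_powers_iff_mem_zpowers.2 hg)
      exact coef _ 1 m fun j => by simp only []; rw [hpow, one_mul]
  have h2 : (2 : ZMod (2 ^ n - 1)) ^ n = 1 := by
    have h3 : ((2 ^ n - 1 : ℕ) : ZMod (2 ^ n - 1)) = 0 := ZMod.natCast_self _
    rw [Nat.cast_sub Nat.one_le_two_pow] at h3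
    push_cast at h3
    exact sub_eq_zero.1 h3
  let u : (ZMod (2 ^ n - 1))ˣ := Units.ofPowEqOne 2 n h2 hnp.ne_zero
  have hrange : α.toHomUnits.range ≤ Subgroup.zpowers u := by
    rintro _ ⟨g, rfl⟩
    have hc : g * T * g⁻¹ = T ^ (a g).val := by
      rw [mul_inv_eq_iff_eq_mul]
      refine ext _ _ fun j => ?_
      rw [mul_smul, mul_smul, hT, hab, hab, hpow, ZMod.natCast_zmod_val]; congr 1; ring
    obtain ⟨i, hi⟩ := exists_two_pow hn T.1 g.1 (by rw [← ho, Subgroup.orderOf_coe])
      (fun v w hv hw => by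
        obtain ⟨i, hi⟩ := e.surjective ⟨v, hv⟩
        obtain ⟨j, hj⟩ := e.surjective ⟨w, hw⟩
        have := hpow (j - i).val i
        rw [ZMod.natCast_zmod_val, add_sub_cancel, hi, hj] at this
        exact ⟨_, congrArg Subtype.val this⟩) hp.out.one_lt (congrArg Subtype.val hc)
    have hi' : T ^ (a g).val = T ^ 2 ^ i := Subtype.ext hi
    have h3 := hpow (a g).val 0
    rw [hi', hpow, ZMod.natCast_zmod_val] at h3
    refine ⟨i, Units.ext ?_⟩
    have := e.injective h3
    simp only [zero_add] at this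
    change _ = a g
    rw [← this]; simp [u]
  have hdvd : Nat.card α.toHomUnits.range ∣ n := by
    refine (Subgroup.card_dvd_of_le hrange).trans ?_
    rw [Nat.card_zpowers]
    exact orderOf_dvd_of_pow_eq_one (Units.ext (by simp [u]))
  have hcard : Nat.card H = Nat.card α.toHomUnits.range * (2 ^ n - 1) := by
    rw [← α.toHomUnits.ker.card_mul_index, Subgroup.index_ker, hker, Nat.card_zpowers, ho, mul_comm]
  rcases (Nat.dvd_prime hnp).1 hdvd with h1 | h1
  · rw [h1, one_mul] at hcard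
    exact Or.inl ⟨isCyclic_of_prime_card hcard, hcard⟩
  · rw [h1] at hcard
    refine Or.inr ⟨hcard, Subgroup.zpowers T.1, Subgroup.zpowers_le_of_mem T.2, ?_, inferInstance,
      by rw [Nat.card_zpowers, Subgroup.orderOf_coe, ho]⟩
    have : (Subgroup.zpowers T.1).subgroupOf H = Subgroup.zpowers T := by
      ext g
      exact ⟨fun ⟨m, hm⟩ => ⟨m, Subtype.ext hm⟩, fun ⟨m, hm⟩ => ⟨m, congrArg Subtype.val hm⟩⟩
    rw [this, ← hker]
    infer_instance

end CfsgLib.CK.Mers
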